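import Mathlib
import Cfsg.Agent.Lib.Helper51.Zass.Defs
import Cfsg.Agent.Lib.Helper91.FpfCyclic
import Cfsg.Agent.Lib.Helper30.CyclicSylow
import Cfsg.Agent.S0016

/-!
# Project ZASS (S0690): tools on fixed-point-free linear groups

* `isFpfLin_subgroup` : restriction to a subgroup;
* `fpf_comm_cyclic` : a commutative f.p.f. group is cyclic;
* `fpf_unique_prime` : an f.p.f. `r`-group has at most one subgroup of order `r`;
* `fpf_pgroup_shape` : `r`-subgroups are cyclic or generalized quaternion;
* `perfect_hom_solvable` : a perfect group has only the trivial hom to a solvable group.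
-/

set_option autoImplicit false

namespace Cfsg.Agent.Lib.Helper63.Zass

open Cfsg.Agent.Lib.Helper51.Zass

universe u

theorem isFpfLin_subgroup {G : Type u} [Group G] (hL : IsFpfLin G) (H : Subgroup G) :
    IsFpfLin H := by
  obtain ⟨p, hp, V, iA, iM, iF, iN, ρ, hρ⟩ := hL
  refine ⟨p, hp, V, iA, iM, iF, iN, ρ.comp H.subtype, ?_⟩
  intro g hg v hv
  refine hρ (g : G) (fun h => hg ?_) v hv
  exact Subtype.ext h

/-- The action on `Multiplicative V` of a linear representation. -/
noncomputable def fpfAut {G : Type u} [Group G] {p : ℕ} {V : Type u} [AddCommGroup V]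
    [Module (ZMod p) V] (ρ : G →* Module.End (ZMod p) V) : G →* MulAut (Multiplicative V) where
  toFun g :=
    { toFun := fun v => Multiplicative.ofAdd (ρ g (Multiplicative.toAdd v))
      invFun := fun v => Multiplicative.ofAdd (ρ g⁻¹ (Multiplicative.toAdd v))
      left_inv := by
        intro v
        have h : ρ g⁻¹ * ρ g = 1 := by rw [← map_mul, inv_mul_cancel, map_one]
        have h2 := congrArg (fun f : Module.End (ZMod p) V => f (Multiplicative.toAdd v)) h
        simp only [Module.End.mul_apply, Module.End.one_apply] at h2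
        simp [h2]
      right_inv := by
        intro v
        have h : ρ g * ρ g⁻¹ = 1 := by rw [← map_mul, mul_inv_cancel, map_one]
        have h2 := congrArg (fun f : Module.End (ZMod p) V => f (Multiplicative.toAdd v)) h
        simp only [Module.End.mul_apply, Module.End.one_apply] at h2
        simp [h2]
      map_mul' := by
        intro a b
        simp [map_add] }
  map_one' := by
    ext v
    simp
  map_mul' := by
    intro g h
    ext v
    simp [map_mul]

theorem fpfAut_apply {G : Type u} [Group G] {p : ℕ} {V : Type u} [AddCommGroup V]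
    [Module (ZMod p) V] (ρ : G →* Module.End (ZMod p) V) (g : G) (v : Multiplicative V) :
    fpfAut ρ g v = Multiplicative.ofAdd (ρ g (Multiplicative.toAdd v)) := rfl

/-- A commutative fixed-point-free linear group is cyclic. -/
theorem fpf_comm_cyclic {G : Type u} [Group G] [Finite G] (hL : IsFpfLin G)
    (hc : ∀ a b : G, a * b = b * a) : IsCyclic G := by
  obtain ⟨p, hp, V, iA, iM, iF, iN, ρ, hρ⟩ := hL
  refine Cfsg.Agent.Lib.Helper91.fpf_isCyclic_of_comm (fpfAut ρ) ?_ hc
  intro a ha v hv
  rw [fpfAut_apply] at hv
  have h1 : ρ a (Multiplicative.toAdd v) = Multiplicative.toAdd v := by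
    have := congrArg Multiplicative.toAdd hv
    simpa using this
  have h2 := hρ a ha _ h1
  have h3 : v = Multiplicative.ofAdd (Multiplicative.toAdd v) := rfl
  rw [h3, h2]
  rfl

/-- In an f.p.f. `r`-group all subgroups of order `r` coincide. -/
theorem fpf_unique_prime {G : Type u} [Group G] [Finite G] (hL : IsFpfLin G) (r : ℕ)
    [hr : Fact r.Prime] (hG : IsPGroup r G) :
    ∀ H K : Subgroup G, Nat.card H = r → Nat.card K = r → H = K := by
  intro H K hH hK
  have hr2 : 2 ≤ r := hr.out.two_le
  have hnt : Nontrivial G := by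
    have h1 : 1 < Nat.card H := by omega
    have h2 : Nat.card H ≤ Nat.card G := Nat.card_le_card_of_injective _ H.subtype_injective
    exact Finite.one_lt_card_iff_nontrivial.mp (by omega)
  have hZ : Nontrivial (Subgroup.center G) := hG.center_nontrivial
  have hZp : IsPGroup r (Subgroup.center G) := hG.to_subgroup _
  have hdvd : r ∣ Nat.card (Subgroup.center G) := by
    obtain ⟨n, hn⟩ := IsPGroup.iff_card.mp hZp
    have hn0 : n ≠ 0 := by
      rintro rfl
      have : 1 < Nat.card (Subgroup.center G) := Finite.one_lt_card_iff_nontrivial.mpr hZ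
      rw [pow_zero] at hn
      omega
    rw [hn]
    exact dvd_pow_self r hn0
  obtain ⟨z, hz⟩ := exists_prime_orderOf_dvd_card' r hdvd
  have hzo : orderOf (z : G) = r := by rw [Subgroup.orderOf_coe]; exact hz
  have hzc : ∀ g : G, g * (z : G) = (z : G) * g := fun g => Subgroup.mem_center_iff.mp z.2 g
  have key : ∀ h : G, orderOf h = r → h ∈ Subgroup.zpowers (z : G) := by
    intro h hh
    set A : Subgroup G := Subgroup.closure {h, (z : G)} with hA
    have hcomm : ∀ x ∈ ({h, (z : G)} : Set G), ∀ y ∈ ({h, (z : G)} : Set G), x * y = y * x := by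
      intro x hx y hy
      rcases hx with rfl | rfl <;> rcases hy with rfl | rfl
      · rfl
      · exact hzc x
      · exact (hzc y).symm
      · rfl
    have hAc : ∀ a b : A, a * b = b * a := by
      intro a b
      exact (Subgroup.isMulCommutative_closure hcomm).is_comm.comm a b
    have hcyc : IsCyclic A := fpf_comm_cyclic (isFpfLin_subgroup hL A) hAc
    have hhA : h ∈ A := Subgroup.subset_closure (by simp)
    have hzA : (z : G) ∈ A := Subgroup.subset_closure (by simp)
    have h1 : orderOf (⟨(z : G), hzA⟩ : A) = r := by rw [Subgroup.orderOf_mk]; exact hzo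
    have h2 : (⟨h, hhA⟩ : A) ^ r = 1 := by
      apply Subtype.ext
      simp only [Subgroup.coe_pow, Subgroup.coe_one]
      rw [← hh]; exact pow_orderOf_eq_one h
    have h3 := Cfsg.Agent.Lib.Helper30.mem_zpowers_of_orderOf_eq (by omega : 0 < r) h1 h2
    obtain ⟨k, hk⟩ := Subgroup.mem_zpowers_iff.mp h3
    refine Subgroup.mem_zpowers_iff.mpr ⟨k, ?_⟩
    have := congrArg (Subtype.val) hk
    simpa using this
  have key2 : ∀ H : Subgroup G, Nat.card H = r → H = Subgroup.zpowers (z : G) := by
    intro H hH
    apply Subgroup.eq_of_le_of_card_ge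
    · intro x hx
      by_cases hx1 : x = 1
      · rw [hx1]; exact Subgroup.one_mem _
      · apply key
        have h1 : orderOf x ∣ r := by
          rw [← hH]; exact Subgroup.orderOf_dvd_natCard H hx
        rcases (Nat.dvd_prime hr.out).mp h1 with h | h
        · exact absurd (orderOf_eq_one_iff.mp h) hx1
        · exact h
    · rw [Nat.card_zpowers, hzo, hH]
  rw [key2 H hH, key2 K hK]

/-- `r`-subgroups of an f.p.f. group are cyclic or generalized quaternion. -/
theorem fpf_pgroup_shape {G : Type u} [Group G] [Finite G] (hL : IsFpfLin G) (r : ℕ)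
    [Fact r.Prime] (P : Subgroup G) (hP : IsPGroup r P) :
    IsCyclic P ∨ (r = 2 ∧ ∃ n : ℕ, Nonempty (P ≃* QuaternionGroup (2 ^ n))) :=
  Cfsg.Agent.S0016.result r hP (fpf_unique_prime (isFpfLin_subgroup hL P) r hP)

/-- A perfect group has only the trivial homomorphism to a solvable group. -/
theorem perfect_hom_solvable {G : Type*} {H : Type*} [Group G] [Group H] [hs : Group.IsSolvable H]
    (hperf : commutator G = ⊤) (f : G →* H) (g : G) : f g = 1 := by
  have hder : ∀ n, derivedSeries G n = ⊤ := by
    intro n
    induction n with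
    | zero => rfl
    | succ n ih => rw [derivedSeries_succ, ih, ← commutator_def, hperf]
  obtain ⟨n, hn⟩ := hs.solvable
  have h1 := map_derivedSeries_le_derivedSeries f n
  rw [hder n, hn] at h1
  have h2 : f g ∈ (⊤ : Subgroup G).map f := ⟨g, Subgroup.mem_top g, rfl⟩
  exact Subgroup.mem_bot.mp (h1 h2)

end Cfsg.Agent.Lib.Helper63.Zass
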