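import Mathlib
import Cfsg.Agent.Lib.Helper51.Zass.Defs
import Cfsg.Agent.Lib.Helper63.Zass.FpfTools
import Cfsg.Agent.Lib.Helper1.QuatSylow
import Cfsg.Agent.Lib.Helper54.Frobenius

/-!
# Project ZASS (S0690): package [FIN-A]

A nontrivial perfect fixed-point-free linear group has an element of order 3.
If all Sylow subgroups are cyclic the group is a Z-group, hence not perfect.  Otherwise a Sylow
2-subgroup is generalized quaternion and `Helper1.quaternion_sylow_dichotomy` gives a normal
2-complement (impossible for a perfect group) or a section `SL(2,3)`.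
-/

set_option autoImplicit false

namespace Cfsg.Agent.Lib.Helper63.Zass

open Cfsg.Agent.Lib.Helper51.Zass

universe u

/-- [FIN-A], without any package hypothesis. -/
theorem pkgFinA' : PkgFinA.{u} := by
  intro G _ _ hL hperf hnt
  classical
  haveI : Fact (Nat.Prime 2) := ⟨Nat.prime_two⟩
  by_cases hcyc : ∀ P : Sylow 2 G, IsCyclic P
  · exfalso
    haveI : IsZGroup G := by
      refine ⟨fun p hp P => ?_⟩
      haveI : Fact p.Prime := ⟨hp⟩
      by_cases h2 : p = 2
      · subst h2
        exact hcyc P
      · rcases fpf_pgroup_shape hL p P P.2 with h | ⟨h, -⟩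
        · exact h
        · exact absurd h h2
    have h1 := IsZGroup.commutator_lt (G := G)
    rw [hperf] at h1
    exact lt_irrefl _ h1
  · push Not at hcyc
    obtain ⟨T, hT⟩ := hcyc
    rcases fpf_pgroup_shape hL 2 T T.2 with h | ⟨-, n, hn⟩
    · exact absurd h hT
    · rcases Cfsg.Agent.Lib.Helper1.quaternion_sylow_dichotomy T n hn with hc | ⟨H, K, hKn, ⟨e⟩⟩
      · exfalso
        rw [Cfsg.Agent.Lib.Helper54.hasNormalPComplement_iff] at hc
        obtain ⟨N, hNn, hcop, k, hk⟩ := hc
        haveI := hNn
        have hpg : IsPGroup 2 (G ⧸ N) := by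
          apply IsPGroup.of_card (n := k)
          rw [← hk]
          rfl
        haveI : Group.IsNilpotent (G ⧸ N) := hpg.isNilpotent
        have hsol : Group.IsSolvable (G ⧸ N) := inferInstance
        have hNtop : N = ⊤ := by
          rw [eq_top_iff]
          intro g _
          exact (QuotientGroup.eq_one_iff g).mp (perfect_hom_solvable hperf (QuotientGroup.mk' N) g)
        have h1 : (Nat.card G).Coprime 2 := by
          rw [hNtop, Subgroup.card_top] at hcop
          exact hcop
        have h3 : Nat.card (T : Subgroup G) = 4 * 2 ^ n := by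
          obtain ⟨e⟩ := hn
          rw [Nat.card_congr e.toEquiv, Nat.card_eq_fintype_card, QuaternionGroup.card]
        have h4 := Subgroup.card_subgroup_dvd_card (T : Subgroup G)
        rw [h3] at h4
        have h5 : 2 ∣ Nat.card G := dvd_trans ⟨2 * 2 ^ n, by ring⟩ h4
        have h6 : (2 : ℕ) ∣ 1 := by
          have := Nat.Coprime.eq_one_of_dvd h1.symm h5
          omega
        omega
      · have h3 : 3 ∣ Nat.card G := by
          have h1 : Nat.card (H ⧸ K.subgroupOf H) = 24 := by
            rw [Nat.card_congr e.toEquiv]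
            exact Cfsg.Agent.Lib.Helper1.card_sl23
          have h2 : Nat.card (H ⧸ K.subgroupOf H) ∣ Nat.card H :=
            Subgroup.card_quotient_dvd_card _
          have h4 : Nat.card H ∣ Nat.card G := Subgroup.card_subgroup_dvd_card H
          rw [h1] at h2
          exact dvd_trans ⟨8, by norm_num⟩ (dvd_trans h2 h4)
        haveI : Fact (Nat.Prime 3) := ⟨Nat.prime_three⟩
        obtain ⟨g, hg⟩ := exists_prime_orderOf_dvd_card' 3 h3
        exact ⟨g, hg⟩

/-- [FIN-A] with the signature of the package list. -/
theorem pkgFinA (_hUI : PkgUI.{u}) : PkgFinA.{u} := pkgFinA'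

end Cfsg.Agent.Lib.Helper63.Zass
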