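import Mathlib
import Cfsg.Agent.Lib.Helper51.Zass.Defs
import Cfsg.Agent.Lib.Helper63.Zass.FpfTools
import Cfsg.Agent.S0144

/-!
# Project ZASS (S0690): package [FIN-B]

In a perfect fixed-point-free linear group `N3 G` is neither of order 3 nor a line.
`G` permutes the (at most 4) subgroups of order 3 of `N3 G`; the image in the symmetric group is
a `{2,3}`-group, hence solvable (Burnside, S0144), hence trivial.  So some subgroup of order 3 is
normal, hence central (its automorphism group is abelian), against the transfer lemma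
`Helper30.central_mem_sylow_eq_one_of_perfect` (Sylow 3-subgroups are cyclic).
-/

set_option autoImplicit false

namespace Cfsg.Agent.Lib.Helper63.Zass

open Cfsg.Agent.Lib.Helper51.Zass

universe u

/-- A perfect f.p.f. group has no normal subgroup of order 3. -/
theorem no_normal_three {G : Type u} [Group G] [Finite G] (hL : IsFpfLin G)
    (hperf : commutator G = ⊤) (P : Subgroup G) (hP3 : Nat.card P = 3)
    (hPn : ∀ g : G, ∀ x ∈ P, g * x * g⁻¹ ∈ P) : False := by
  have : Fact (Nat.Prime 3) := ⟨Nat.prime_three⟩
  have hPnormal : P.Normal := ⟨fun x hx g => hPn g x hx⟩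
  have hPc : IsCyclic P := isCyclic_of_prime_card hP3
  -- the conjugation action on `P` is trivial
  have htriv : ∀ g : G, MulAut.conjNormal g = (1 : MulAut P) := by
    intro g
    have h1 := perfect_hom_solvable hperf
      ((IsCyclic.mulAutMulEquiv P).toMonoidHom.comp (MulAut.conjNormal (H := P))) g
    have h2 : (IsCyclic.mulAutMulEquiv P) (MulAut.conjNormal g) = 1 := h1
    have h3 : (IsCyclic.mulAutMulEquiv P) (MulAut.conjNormal g)
        = (IsCyclic.mulAutMulEquiv P) 1 := by rw [h2, map_one]
    exact (IsCyclic.mulAutMulEquiv P).injective h3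
  have hcent : ∀ x ∈ P, x ∈ Subgroup.center G := by
    intro x hx
    rw [Subgroup.mem_center_iff]
    intro g
    have h1 := congrArg (fun φ : MulAut P => ((φ ⟨x, hx⟩ : P) : G)) (htriv g)
    simp only [MulAut.conjNormal_apply, MulAut.one_apply] at h1
    calc g * x = (g * x * g⁻¹) * g := by group
      _ = x * g := by rw [h1]
  -- an element of order 3
  obtain ⟨x, hx⟩ := exists_prime_orderOf_dvd_card' (G := P) 3 (by rw [hP3])
  have hx1 : (x : G) ≠ 1 := by
    intro h
    have : x = 1 := Subtype.ext h
    rw [this, orderOf_one] at hx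
    omega
  have hPp : IsPGroup 3 P := IsPGroup.of_card (n := 1) (by rw [hP3]; norm_num)
  obtain ⟨S, hS⟩ := hPp.exists_le_sylow
  have hScyc : IsCyclic (S : Subgroup G) := by
    rcases fpf_pgroup_shape hL 3 S S.2 with h | ⟨h, -⟩
    · exact h
    · omega
  have hScomm : ∀ a ∈ S, ∀ b ∈ S, a * b = b * a := by
    intro a ha b hb
    let _ := IsCyclic.commGroup (α := (S : Subgroup G))
    have := mul_comm (⟨a, ha⟩ : (S : Subgroup G)) ⟨b, hb⟩
    exact congrArg Subtype.val this
  exact hx1 (Cfsg.Agent.Lib.Helper30.central_mem_sylow_eq_one_of_perfect hperf S hScomm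
    (hS x.2) (hcent x x.2))

/-- `N3 G` is invariant under conjugation. -/
theorem n3_conj {G : Type u} [Group G] (g x : G) (hx : x ∈ N3 G) : g * x * g⁻¹ ∈ N3 G := by
  have h1 : N3 G ≤ (N3 G).comap (MulAut.conj g).toMonoidHom := by
    unfold N3
    rw [Subgroup.closure_le]
    intro y hy
    rw [SetLike.mem_coe, Subgroup.mem_comap]
    apply Subgroup.subset_closure
    have h2 : orderOf ((MulAut.conj g).toMonoidHom y) = orderOf y :=
      orderOf_injective (MulAut.conj g).toMonoidHom (MulAut.conj g).injective y
    exact h2.trans hy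
  exact h1 hx

/-- the conjugate `g P g⁻¹` -/
def cjS {G : Type u} [Group G] (g : G) (P : Subgroup G) : Subgroup G :=
  P.map (MulAut.conj g).toMonoidHom

theorem mem_cjS {G : Type u} [Group G] (g : G) (P : Subgroup G) (x : G) :
    x ∈ cjS g P ↔ g⁻¹ * x * g ∈ P := by
  unfold cjS
  rw [Subgroup.mem_map]
  constructor
  · rintro ⟨y, hy, rfl⟩
    have : g⁻¹ * ((MulAut.conj g).toMonoidHom y) * g = y := by
      simp [MulAut.conj_apply]
      group
    rw [this]; exact hy
  · intro h
    refine ⟨g⁻¹ * x * g, h, ?_⟩
    simp [MulAut.conj_apply]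
    group

theorem cjS_one {G : Type u} [Group G] (P : Subgroup G) : cjS 1 P = P := by
  ext x
  rw [mem_cjS]
  simp

theorem cjS_mul {G : Type u} [Group G] (g h : G) (P : Subgroup G) :
    cjS (g * h) P = cjS g (cjS h P) := by
  ext x
  rw [mem_cjS, mem_cjS, mem_cjS]
  have : (g * h)⁻¹ * x * (g * h) = h⁻¹ * (g⁻¹ * x * g) * h := by group
  rw [this]

theorem card_cjS {G : Type u} [Group G] (g : G) (P : Subgroup G) :
    Nat.card (cjS g P) = Nat.card P := by
  unfold cjS
  exact Subgroup.card_map_of_injective (MulAut.conj g).injective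

theorem div24 : ∀ d ∈ Nat.divisors 24, ∃ a ∈ Finset.range 4, ∃ b ∈ Finset.range 2,
    d = 2 ^ a * 3 ^ b := by
  decide

/-- [FIN-B] -/
theorem pkgFinB (h24 : PkgStr24.{u}) (hUI : PkgUI.{u}) : PkgFinB.{u} := by
  intro G _ _ hL hperf
  classical
  refine ⟨?_, ?_⟩
  · intro h3
    exact no_normal_three hL hperf (N3 G) h3 (fun g x hx => n3_conj g x hx)
  · intro hLine
    obtain ⟨h4, -⟩ := h24 G (hUI G hL) (N3 G) hLine
    set X : Set (Subgroup G) := {P : Subgroup G | Nat.card P = 3 ∧ P ≤ N3 G} with hX
    have hXmem : ∀ (g : G) (P : Subgroup G), P ∈ X → cjS g P ∈ X := by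
      intro g P hP
      refine ⟨by rw [card_cjS]; exact hP.1, ?_⟩
      intro x hx
      rw [mem_cjS] at hx
      have h1 := n3_conj g _ (hP.2 hx)
      have h2 : g * (g⁻¹ * x * g) * g⁻¹ = x := by group
      rwa [h2] at h1
    -- the permutation action on `X`
    let f : G →* Equiv.Perm X :=
      { toFun := fun g =>
          { toFun := fun P => ⟨cjS g P.1, hXmem g P.1 P.2⟩
            invFun := fun P => ⟨cjS g⁻¹ P.1, hXmem g⁻¹ P.1 P.2⟩
            left_inv := by
              intro P
              apply Subtype.ext
              change cjS g⁻¹ (cjS g P.1) = P.1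
              rw [← cjS_mul, inv_mul_cancel, cjS_one]
            right_inv := by
              intro P
              apply Subtype.ext
              change cjS g (cjS g⁻¹ P.1) = P.1
              rw [← cjS_mul, mul_inv_cancel, cjS_one] }
        map_one' := by
          apply Equiv.ext
          intro P
          apply Subtype.ext
          change cjS 1 P.1 = P.1
          rw [cjS_one]
        map_mul' := by
          intro g h
          apply Equiv.ext
          intro P
          apply Subtype.ext
          change cjS (g * h) P.1 = cjS g (cjS h P.1)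
          rw [cjS_mul] }
    have hf : ∀ (g : G) (P : X), ((f g P : X) : Subgroup G) = cjS g P.1 := fun g P => rfl
    -- the image is solvable
    have hcardX : Nat.card X = 4 := by
      rw [Nat.card_coe_set_eq]; exact h4
    have hcardP : Nat.card (Equiv.Perm X) = 24 := by
      rw [Nat.card_perm, hcardX]; rfl
    have hdvd : Nat.card f.range ∣ 24 := by
      rw [← hcardP]; exact Subgroup.card_subgroup_dvd_card f.range
    obtain ⟨a, -, b, -, hab⟩ := div24 _ (Nat.mem_divisors.mpr ⟨hdvd, by norm_num⟩)
    have hsol : Group.IsSolvable f.range :=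
      Cfsg.Agent.S0144.result 2 3 a b Nat.prime_two Nat.prime_three hab
    have hftriv : ∀ g : G, f g = 1 := by
      intro g
      have h1 := perfect_hom_solvable hperf f.rangeRestrict g
      exact congrArg Subtype.val h1
    -- every member of `X` is normal
    have hXne : X.Nonempty := by
      apply Set.nonempty_of_ncard_ne_zero
      rw [h4]; norm_num
    obtain ⟨P, hP⟩ := hXne
    apply no_normal_three hL hperf P hP.1
    intro g x hx
    have h1 : cjS g P = P := by
      have h2 := hf g ⟨P, hP⟩
      rw [hftriv g] at h2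
      exact h2.symm
    rw [← h1, mem_cjS]
    have h2 : g⁻¹ * (g * x * g⁻¹) * g = x := by group
    rw [h2]; exact hx

end Cfsg.Agent.Lib.Helper63.Zass
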